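import Mathlib

/-! The largest products of partitions of an integer. -/

set_option autoImplicit false

namespace Cfsg.Agent.Lib.AbPerm

/-- The largest product of the parts of a partition of `n`. -/
def g : ℕ → ℕ
  | 0 => 1
  | 1 => 1
  | 2 => 2
  | 3 => 3
  | 4 => 4
  | (n + 5) => 3 * g (n + 2)

theorem g_add_three (n : ℕ) (hn : 2 ≤ n) : g (n + 3) = 3 * g n := by
  obtain ⟨m, rfl⟩ : ∃ m, n = m + 2 := ⟨n - 2, by omega⟩
  show g (m + 5) = _
  rw [g]

theorem g_steps (b : ℕ) : g b ≤ g (b + 1) ∧ 2 * g b ≤ g (b + 2) ∧ 3 * g b ≤ g (b + 3) := by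
  induction b using Nat.strong_induction_on with
  | _ b ih =>
    rcases Nat.lt_or_ge b 5 with hb | hb
    · interval_cases b <;> decide
    · obtain ⟨c, rfl⟩ : ∃ c, b = c + 3 := ⟨b - 3, by omega⟩
      obtain ⟨h1, h2, h3⟩ := ih c (by omega)
      have e0 := g_add_three c (by omega)
      have e1 := g_add_three (c + 1) (by omega)
      have e2 := g_add_three (c + 2) (by omega)
      have e3 := g_add_three (c + 3) (by omega)
      have e1' : g (c + 3 + 1) = g (c + 1 + 3) := by congr 1 <;> omega
      have e2' : g (c + 3 + 2) = g (c + 2 + 3) := by congr 1 <;> omega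
      rw [e1', e2', e3, e0, e1, e2]
      constructor
      · omega
      constructor
      · omega
      · omega

theorem mul_g_le (a b : ℕ) (ha : 1 ≤ a) : a * g b ≤ g (a + b) := by
  induction a using Nat.strong_induction_on with
  | _ a ih =>
    obtain ⟨h1, h2, h3⟩ := g_steps b
    have hcomm : ∀ x, g (x + b) = g (b + x) := fun x => by rw [add_comm]
    rcases Nat.lt_or_ge a 5 with ha5 | ha5
    · interval_cases a
      · rw [hcomm]; omega
      · rw [hcomm]; omega
      · rw [hcomm]; omega
      · have h4 := (g_steps (b + 2)).2.1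
        have e : g (b + 2 + 2) = g (4 + b) := by congr 1 <;> omega
        rw [e] at h4
        omega
    · have h4 := ih (a - 3) (by omega) (by omega)
      have h5 := (g_steps (a - 3 + b)).2.2
      have e : g (a - 3 + b + 3) = g (a + b) := by congr 1 <;> omega
      rw [e] at h5
      calc a * g b ≤ (3 * (a - 3)) * g b := Nat.mul_le_mul_right _ (by omega)
        _ = 3 * ((a - 3) * g b) := by ring
        _ ≤ 3 * g (a - 3 + b) := Nat.mul_le_mul_left _ h4
        _ ≤ g (a + b) := h5

theorem g_mul_three (k : ℕ) : g (3 * k) = 3 ^ k := by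
  induction k using Nat.strong_induction_on with
  | _ k ih =>
    match k with
    | 0 => rfl
    | 1 => rfl
    | (m + 2) =>
      have e : 3 * (m + 2) = 3 * (m + 1) + 3 := by ring
      rw [e, g_add_three _ (by omega), ih (m + 1) (by omega)]
      ring

theorem g_mul_three_one (m : ℕ) : g (3 * (m + 1) + 1) = 4 * 3 ^ m := by
  induction m with
  | zero => rfl
  | succ m ih =>
    have e : 3 * (m + 1 + 1) + 1 = 3 * (m + 1) + 1 + 3 := by ring
    rw [e, g_add_three _ (by omega), ih]
    ring

theorem g_mul_three_two (k : ℕ) : g (3 * k + 2) = 2 * 3 ^ k := by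
  induction k with
  | zero => rfl
  | succ m ih =>
    have e : 3 * (m + 1) + 2 = 3 * m + 2 + 3 := by ring
    rw [e, g_add_three _ (by omega), ih]
    ring

theorem g_six (a b : ℕ) (ha : 6 ≤ a) : 3 * a * g b ≤ 2 * g (a + b) := by
  induction a using Nat.strong_induction_on with
  | _ a ih =>
    have hb2 := fun x => (g_steps x).2.1
    have hb3 := fun x => (g_steps x).2.2
    have hb1 := fun x => (g_steps x).1
    rcases Nat.lt_or_ge a 9 with ha9 | ha9
    · interval_cases a
      · have h1 := hb3 b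
        have h2 := hb3 (b + 3)
        have e : g (b + 3 + 3) = g (6 + b) := by congr 1 <;> omega
        rw [e] at h2
        omega
      · have h1 := hb2 b
        have h2 := hb2 (b + 2)
        have h3 := hb3 (b + 2 + 2)
        have e : g (b + 2 + 2 + 3) = g (7 + b) := by congr 1 <;> omega
        rw [e] at h3
        omega
      · have h1 := hb2 b
        have h2 := hb3 (b + 2)
        have h3 := hb3 (b + 2 + 3)
        have e : g (b + 2 + 3 + 3) = g (8 + b) := by congr 1 <;> omega
        rw [e] at h3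
        omega
    · have h4 := ih (a - 3) (by omega) (by omega)
      have h5 := hb3 (a - 3 + b)
      have e : g (a - 3 + b + 3) = g (a + b) := by congr 1 <;> omega
      rw [e] at h5
      calc 3 * a * g b ≤ (3 * (3 * (a - 3))) * g b := Nat.mul_le_mul_right _ (by omega)
        _ = 3 * (3 * (a - 3) * g b) := by ring
        _ ≤ 3 * (2 * g (a - 3 + b)) := Nat.mul_le_mul_left _ h4
        _ ≤ 2 * g (a + b) := by omega

/-- The estimate for two even orbits. -/
theorem two_even_bound (k m : ℕ) (hk : 2 ≤ k) (hm : Even m) (hm2 : 2 ≤ m) (hmk : m ≤ 3 * k) :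
    2 * m * g (3 * k - m) ≤ 16 * 3 ^ (k - 2) := by
  obtain ⟨j, rfl⟩ : ∃ j, k = j + 2 := ⟨k - 2, by omega⟩
  simp only [Nat.add_sub_cancel]
  rcases Nat.lt_or_ge m 6 with h6 | h6
  · obtain ⟨r, rfl⟩ := hm
    have : r = 1 ∨ r = 2 := by omega
    rcases this with rfl | rfl
    · have e : 3 * (j + 2) - (1 + 1) = 3 * (j + 1) + 1 := by omega
      rw [e, g_mul_three_one]
      simp
      ring_nf
      omega
    · have e : 3 * (j + 2) - (2 + 2) = 3 * j + 2 := by omega
      rw [e, g_mul_three_two]
      simp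
      ring_nf
      omega
  · have h1 := g_six m (3 * (j + 2) - m) h6
    have e : m + (3 * (j + 2) - m) = 3 * (j + 2) := by omega
    rw [e, g_mul_three] at h1
    have e2 : 3 ^ (j + 2) = 9 * 3 ^ j := by ring
    rw [e2] at h1
    have h2 : 3 * (2 * m * g (3 * (j + 2) - m)) = 2 * (3 * m * g (3 * (j + 2) - m)) := by ring
    have h3 : 0 < 3 ^ j := by positivity
    nlinarith

/-- The largest product of the parts, over partitions without part `2`. -/
def g' : ℕ → ℕ
  | 0 => 1
  | 1 => 1
  | 2 => 1
  | 3 => 3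
  | 4 => 4
  | 5 => 5
  | 6 => 9
  | 7 => 12
  | 8 => 16
  | (n + 9) => 3 * g' (n + 6)

theorem g'_add_three (n : ℕ) (hn : 6 ≤ n) : g' (n + 3) = 3 * g' n := by
  obtain ⟨m, rfl⟩ : ∃ m, n = m + 6 := ⟨n - 6, by omega⟩
  show g' (m + 9) = _
  rw [g']

theorem g'_steps (b : ℕ) : g' b ≤ g' (b + 1) ∧ 3 * g' b ≤ g' (b + 3) ∧ 4 * g' b ≤ g' (b + 4) ∧ 5 * g' b ≤ g' (b + 5) := by
  induction b using Nat.strong_induction_on with
  | _ b ih =>
    rcases Nat.lt_or_ge b 9 with hb | hb
    · interval_cases b <;> decide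
    · obtain ⟨c, rfl⟩ : ∃ c, b = c + 3 := ⟨b - 3, by omega⟩
      obtain ⟨h1, h2, h3, h4⟩ := ih c (by omega)
      have e0 := g'_add_three c (by omega)
      have e1 := g'_add_three (c + 1) (by omega)
      have e3 := g'_add_three (c + 3) (by omega)
      have e4 := g'_add_three (c + 4) (by omega)
      have e5 := g'_add_three (c + 5) (by omega)
      have e1' : g' (c + 3 + 1) = g' (c + 1 + 3) := by congr 1 <;> omega
      have e4' : g' (c + 3 + 4) = g' (c + 4 + 3) := by congr 1 <;> omega
      have e5' : g' (c + 3 + 5) = g' (c + 5 + 3) := by congr 1 <;> omega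
      rw [e1', e4', e5', e3, e0, e1, e4, e5]
      refine ⟨by omega, by omega, by omega, by omega⟩

theorem mul_g'_le (a b : ℕ) (ha : 1 ≤ a) (ha2 : a ≠ 2) : a * g' b ≤ g' (a + b) := by
  induction a using Nat.strong_induction_on with
  | _ a ih =>
    obtain ⟨h1, h3, h4, h5⟩ := g'_steps b
    have hcomm : ∀ x, g' (x + b) = g' (b + x) := fun x => by rw [add_comm]
    rcases Nat.lt_or_ge a 6 with ha5 | ha5
    · interval_cases a
      · rw [hcomm]; omega
      · omega
      · rw [hcomm]; omega
      · rw [hcomm]; omega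
      · rw [hcomm]; omega
    · have h6 := ih (a - 3) (by omega) (by omega) (by omega)
      have h7 := (g'_steps (a - 3 + b)).2.1
      have e : g' (a - 3 + b + 3) = g' (a + b) := by congr 1 <;> omega
      rw [e] at h7
      calc a * g' b ≤ (3 * (a - 3)) * g' b := Nat.mul_le_mul_right _ (by omega)
        _ = 3 * ((a - 3) * g' b) := by ring
        _ ≤ 3 * g' (a - 3 + b) := Nat.mul_le_mul_left _ h6
        _ ≤ g' (a + b) := h7

theorem g'_mul_three_two (m : ℕ) : g' (3 * (m + 2) + 2) = 16 * 3 ^ m := by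
  induction m with
  | zero => rfl
  | succ m ih =>
    have e : 3 * (m + 1 + 2) + 2 = 3 * (m + 2) + 2 + 3 := by ring
    rw [e, g'_add_three _ (by omega), ih]
    ring

/-- Products of integers are bounded through a super-multiplicative function. -/
theorem prod_le_of_superadd {ι : Type*} (h : ℕ → ℕ) (h0 : h 0 = 1) (P : ℕ → Prop)
    (hs : ∀ a b, P a → a * h b ≤ h (a + b)) (s : Finset ι) (n : ι → ℕ) (hP : ∀ i ∈ s, P (n i)) :
    ∏ i ∈ s, n i ≤ h (∑ i ∈ s, n i) := by
  classical
  induction s using Finset.induction_on with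
  | empty => simp [h0]
  | insert a s ha ih =>
    rw [Finset.prod_insert ha, Finset.sum_insert ha]
    calc n a * ∏ i ∈ s, n i ≤ n a * h (∑ i ∈ s, n i) :=
          Nat.mul_le_mul_left _ (ih fun i hi => hP i (Finset.mem_insert_of_mem hi))
      _ ≤ _ := hs _ _ (hP a (Finset.mem_insert_self a s))

end Cfsg.Agent.Lib.AbPerm
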