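import Mathlib
import Cfsg.Agent.Lib.AbPerm.Numbers

/-! Abelian permutation groups: the order is at most the product of the orbit lengths. -/

set_option autoImplicit false
set_option linter.unusedSectionVars false

namespace Cfsg.Agent.Lib.AbPerm

open Equiv MulAction

section Orbits

variable {X : Type*} [Fintype X] [DecidableEq X] (A : Subgroup (Perm X))

/-- Length of an orbit. -/
noncomputable def orb (ω : orbitRel.Quotient A X) : ℕ := Nat.card (orbit A ω.out)

theorem orb_pos (ω : orbitRel.Quotient A X) : 1 ≤ orb A ω := by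
  rw [orb]
  have : Nonempty (orbit A ω.out) := ⟨⟨ω.out, mem_orbit_self _⟩⟩
  exact Nat.card_pos

variable [Fintype (orbitRel.Quotient A X)]

theorem sum_orb : ∑ ω, orb A ω = Fintype.card X := by
  classical
  have h := Nat.card_congr (selfEquivSigmaOrbits A X)
  rw [Nat.card_sigma, Nat.card_eq_fintype_card] at h
  exact h.symm

theorem smul_apply_eq (a : A) (x : X) : a • x = (a : Perm X) x := rfl

/-- Each point lies in the orbit of the representative of its class. -/
theorem exists_smul_out (z : X) : ∃ t : A, t • (Quotient.mk'' z : orbitRel.Quotient A X).out = z := by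
  have h : (Quotient.mk'' z : orbitRel.Quotient A X).out ∈ orbit A z := by
    have := Quotient.exact (Quotient.out_eq (Quotient.mk'' z : orbitRel.Quotient A X))
    exact this
  obtain ⟨t, ht⟩ := h
  refine ⟨t⁻¹, ?_⟩
  rw [← ht]
  simp

theorem card_le_prod (hA : ∀ a ∈ A, ∀ b ∈ A, a * b = b * a) : Nat.card A ≤ ∏ ω, orb A ω := by
  classical
  let f : A → ∀ ω : orbitRel.Quotient A X, orbit A ω.out := fun a ω => ⟨a • ω.out, mem_orbit _ a⟩
  have hf : Function.Injective f := by
    intro a b hab
    apply Subtype.ext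
    ext z
    obtain ⟨t, ht⟩ := exists_smul_out A z
    have h1 := congrArg Subtype.val (congrFun hab (Quotient.mk'' z))
    have h2 : a • (Quotient.mk'' z : orbitRel.Quotient A X).out = b • (Quotient.mk'' z : orbitRel.Quotient A X).out := h1
    rw [← ht]
    have ha : ((a : Perm X) * (t : Perm X)) = (t : Perm X) * a := hA _ a.2 _ t.2
    have hb : ((b : Perm X) * (t : Perm X)) = (t : Perm X) * b := hA _ b.2 _ t.2
    have h3 : (a : Perm X) (t • (Quotient.mk'' z : orbitRel.Quotient A X).out) = (t : Perm X) (a • (Quotient.mk'' z : orbitRel.Quotient A X).out) := by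
      exact congrFun (congrArg DFunLike.coe ha) _
    have h4 : (b : Perm X) (t • (Quotient.mk'' z : orbitRel.Quotient A X).out) = (t : Perm X) (b • (Quotient.mk'' z : orbitRel.Quotient A X).out) := by
      exact congrFun (congrArg DFunLike.coe hb) _
    rw [h3, h4, h2]
  have h := Nat.card_le_card_of_injective f hf
  rw [Nat.card_pi] at h
  exact h

/-- `|A| ≤ g(|X|)`. -/
theorem card_le_g (hA : ∀ a ∈ A, ∀ b ∈ A, a * b = b * a) : Nat.card A ≤ g (Fintype.card X) := by
  refine (card_le_prod A hA).trans ?_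
  rw [← sum_orb A]
  refine prod_le_of_superadd g rfl (fun a => 1 ≤ a) (fun a b ha => mul_g_le a b ha) _ _ fun ω _ => orb_pos A ω

theorem normal_stabilizer (hA : ∀ a ∈ A, ∀ b ∈ A, a * b = b * a) (x : X) : (stabilizer A x).Normal := by
  constructor
  intro n hn g
  have h : g * n * g⁻¹ = n := by
    apply Subtype.ext
    show (g : Perm X) * n * (g : Perm X)⁻¹ = n
    rw [hA _ g.2 _ n.2, mul_assoc, mul_inv_cancel, mul_one]
  rwa [h]

/-- The power of an element by the length of the orbit fixes the points of the orbit. -/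
theorem pow_orbit_smul (hA : ∀ a ∈ A, ∀ b ∈ A, a * b = b * a) (a : A) (x : X) :
    (a ^ Nat.card (orbit A x)) • x = x := by
  haveI := normal_stabilizer A hA x
  have h := (stabilizer A x).pow_index_mem a
  rw [index_stabilizer, ← Nat.card_coe_set_eq] at h
  exact h

/-- The orbit of any point of a class has the length of the class. -/
theorem card_orbit_eq (z : X) : Nat.card (orbit A z) = orb A (Quotient.mk'' z) := by
  rw [orb]
  have h : orbit A z = orbit A (Quotient.mk'' z : orbitRel.Quotient A X).out := by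
    rw [orbit_eq_iff]
    exact Quotient.exact (Quotient.out_eq (Quotient.mk'' z : orbitRel.Quotient A X)).symm
  rw [h]

theorem pow_orb_smul (hA : ∀ a ∈ A, ∀ b ∈ A, a * b = b * a) (a : A) (z : X) :
    (a ^ orb A (Quotient.mk'' z)) • z = z := by
  rw [← card_orbit_eq]
  exact pow_orbit_smul A hA a z

/-- An abelian group of even permutations with an orbit of length two has another orbit of even length. -/
theorem exists_other_even (hA : ∀ a ∈ A, ∀ b ∈ A, a * b = b * a) (hs : ∀ a ∈ A, Perm.sign a = 1)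
    (ω₀ : orbitRel.Quotient A X) (h2 : orb A ω₀ = 2) :
    ∃ ω₁, ω₁ ≠ ω₀ ∧ Even (orb A ω₁) := by
  classical
  by_contra hcon
  push Not at hcon
  have hodd : ∀ ω, ω ≠ ω₀ → Odd (orb A ω) := fun ω hω => Nat.not_even_iff_odd.1 (hcon ω hω)
  -- a point moved
  let x := ω₀.out
  have hcard : Nat.card (orbit A x) = 2 := h2
  have hex : ∃ y ∈ orbit A x, y ≠ x := by
    by_contra hno
    push Not at hno
    have : orbit A x = {x} := by
      ext y
      exact ⟨fun hy => hno y hy, fun hy => by rw [Set.mem_singleton_iff] at hy; rw [hy]; exact mem_orbit_self x⟩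
    rw [this] at hcard
    simp at hcard
  obtain ⟨y, ⟨a, rfl⟩, hy⟩ := hex
  -- the product of the other orbit lengths
  let N := ∏ ω ∈ Finset.univ.erase ω₀, orb A ω
  have hN : Odd N := by
    apply Finset.prod_induction _ Odd (fun _ _ h1 h2 => h1.mul h2) odd_one
    intro ω hω
    exact hodd ω (Finset.ne_of_mem_erase hω)
  have hx0 : (Quotient.mk'' x : orbitRel.Quotient A X) = ω₀ := Quotient.out_eq' ω₀
  have hy0 : (Quotient.mk'' (a • x) : orbitRel.Quotient A X) = ω₀ := by
    rw [← hx0]
    exact orbitRel.Quotient.quotient_smul_eq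
  have haa : (a ^ 2) • x = x := by
    have := pow_orbit_smul A hA a x
    rwa [hcard] at this
  obtain ⟨r, hr⟩ := hN
  have hpowfix : ∀ (b : A) (z : X), b • z = z → ∀ c : ℕ, (b ^ c) • z = z := by
    intro b z hbz c
    induction c with
    | zero => simp
    | succ c ih => rw [pow_succ, mul_smul, hbz, ih]
  have hbx : (a ^ N) • x = a • x := by
    rw [hr, pow_succ', mul_smul, pow_mul, hpowfix _ _ haa]
  have hcomm : ∀ (u v : A), u • (v • x) = v • (u • x) := by
    intro u v
    rw [← mul_smul, ← mul_smul]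
    congr 1
    exact Subtype.ext (hA _ u.2 _ v.2)
  have hby : (a ^ N) • (a • x) = x := by
    rw [hcomm, hbx, ← mul_smul, ← sq, haa]
  have hset : ({x, a • x} : Set X) = orbit A x := by
    apply Set.eq_of_subset_of_ncard_le
    · rintro z (rfl | rfl)
      · exact mem_orbit_self _
      · exact mem_orbit _ a
    · rw [Set.ncard_pair hy.symm, ← Nat.card_coe_set_eq, hcard]
    · exact Set.toFinite _
  have hb : ((a ^ N : A) : Perm X) = swap x (a • x) := by
    ext z
    by_cases hz : (Quotient.mk'' z : orbitRel.Quotient A X) = ω₀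
    · obtain ⟨t, ht⟩ := exists_smul_out A z
      rw [hz] at ht
      have hzo : z ∈ orbit A x := ⟨t, ht⟩
      rw [← hset] at hzo
      rcases hzo with rfl | hzo
      · rw [swap_apply_left]
        exact hbx
      · rw [Set.mem_singleton_iff] at hzo
        subst hzo
        rw [swap_apply_right]
        exact hby
    · have hzx : z ≠ x := fun h => hz (by rw [h]; exact hx0)
      have hzy : z ≠ a • x := fun h => hz (by rw [h]; exact hy0)
      rw [swap_apply_of_ne_of_ne hzx hzy]
      have hdvd : orb A (Quotient.mk'' z) ∣ N := Finset.dvd_prod_of_mem _ (Finset.mem_erase.2 ⟨hz, Finset.mem_univ _⟩)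
      obtain ⟨c, hc⟩ := hdvd
      have h1 := pow_orb_smul A hA a z
      show (a ^ N) • z = z
      rw [hc, pow_mul]
      exact hpowfix _ _ h1 c
  have h1 := hs _ (a ^ N).2
  rw [hb, Perm.sign_swap hy.symm] at h1
  exact absurd h1 (by decide)

/-- The bound for abelian groups of even permutations in degree `3k + 2`. -/
theorem card_le_even (hA : ∀ a ∈ A, ∀ b ∈ A, a * b = b * a) (hs : ∀ a ∈ A, Perm.sign a = 1)
    (k : ℕ) (hk : 2 ≤ k) (hX : Fintype.card X = 3 * k + 2) : Nat.card A ≤ 16 * 3 ^ (k - 2) := by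
  classical
  refine (card_le_prod A hA).trans ?_
  have hsum := sum_orb A
  rw [hX] at hsum
  by_cases h : ∃ ω₀, orb A ω₀ = 2
  · obtain ⟨ω₀, h0⟩ := h
    obtain ⟨ω₁, hne, h1⟩ := exists_other_even A hA hs ω₀ h0
    have hmem : ω₁ ∈ Finset.univ.erase ω₀ := Finset.mem_erase.2 ⟨hne, Finset.mem_univ _⟩
    rw [← Finset.mul_prod_erase Finset.univ (orb A) (Finset.mem_univ ω₀),
      ← Finset.mul_prod_erase _ (orb A) hmem]
    rw [← Finset.add_sum_erase Finset.univ (orb A) (Finset.mem_univ ω₀),
      ← Finset.add_sum_erase _ (orb A) hmem] at hsum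
    have hP := prod_le_of_superadd g rfl (fun a => 1 ≤ a) (fun a b ha => mul_g_le a b ha)
      ((Finset.univ.erase ω₀).erase ω₁) (orb A) (fun ω _ => orb_pos A ω)
    rw [h0] at hsum ⊢
    have hm1 := orb_pos A ω₁
    have hm2 : 2 ≤ orb A ω₁ := by
      obtain ⟨r, hr⟩ := h1
      omega
    have e : ∑ ω ∈ (Finset.univ.erase ω₀).erase ω₁, orb A ω = 3 * k - orb A ω₁ := by omega
    rw [e] at hP
    have hb := two_even_bound k (orb A ω₁) hk h1 hm2 (by omega)
    calc 2 * (orb A ω₁ * ∏ ω ∈ (Finset.univ.erase ω₀).erase ω₁, orb A ω)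
        ≤ 2 * (orb A ω₁ * g (3 * k - orb A ω₁)) := Nat.mul_le_mul_left _ (Nat.mul_le_mul_left _ hP)
      _ = 2 * orb A ω₁ * g (3 * k - orb A ω₁) := by ring
      _ ≤ _ := hb
  · push Not at h
    have h1 := prod_le_of_superadd g' rfl (fun a => 1 ≤ a ∧ a ≠ 2) (fun a b ha => mul_g'_le a b ha.1 ha.2)
      Finset.univ (orb A) (fun ω _ => ⟨orb_pos A ω, h ω⟩)
    rw [hsum] at h1
    obtain ⟨m, rfl⟩ : ∃ m, k = m + 2 := ⟨k - 2, by omega⟩
    rw [g'_mul_three_two] at h1
    exact h1

end Orbits

end Cfsg.Agent.Lib.AbPerm
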