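import Mathlib
import Cfsg.Agent.Lib.AbPerm.Orbits

/-! Existence of large abelian subgroups of symmetric and alternating groups. -/

set_option autoImplicit false
set_option linter.unusedSectionVars false

namespace Cfsg.Agent.Lib.AbPerm

open Equiv

/-- First generator of the Klein group. -/
def a4 : Perm (Fin 4) := swap 0 1 * swap 2 3
/-- Second generator of the Klein group. -/
def b4 : Perm (Fin 4) := swap 0 2 * swap 1 3
/-- The Klein group as a finite set. -/
def S4 : Finset (Perm (Fin 4)) := {1, a4, b4, a4 * b4}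

set_option maxRecDepth 100000 in
theorem S4_mul : ∀ x ∈ S4, ∀ y ∈ S4, x * y ∈ S4 := by decide
set_option maxRecDepth 100000 in
theorem S4_comm : ∀ x ∈ S4, ∀ y ∈ S4, x * y = y * x := by decide
set_option maxRecDepth 100000 in
theorem S4_card : S4.card = 4 := by decide
set_option maxRecDepth 100000 in
theorem S4_inv : ∀ x ∈ S4, x⁻¹ ∈ S4 := by decide
set_option maxRecDepth 100000 in
theorem S4_sign : ∀ x ∈ S4, Perm.sign x = 1 := by decide
set_option maxRecDepth 100000 in
theorem A3_comm : ∀ a b : Perm (Fin 3), Perm.sign a = 1 → Perm.sign b = 1 → a * b = b * a := by decide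
set_option maxRecDepth 100000 in
theorem P2_comm : ∀ a b : Perm (Fin 2), a * b = b * a := by decide

/-- The Klein group as a subgroup. -/
def V4 : Subgroup (Perm (Fin 4)) where
  carrier := S4
  mul_mem' {x y} hx hy := S4_mul x hx y hy
  one_mem' := by decide
  inv_mem' {x} hx := S4_inv x hx

theorem mem_V4 {x : Perm (Fin 4)} : x ∈ V4 ↔ x ∈ S4 := Iff.rfl

/-- There is an abelian subgroup of order `c` in degree `n`, of even permutations if `E` holds. -/
def HasAb (n c : ℕ) (E : Prop) : Prop :=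
  ∃ A : Subgroup (Perm (Fin n)), (∀ a ∈ A, ∀ b ∈ A, a * b = b * a) ∧ Nat.card A = c ∧ (E → ∀ a ∈ A, Perm.sign a = 1)

theorem HasAb.cast {n m c d : ℕ} {E : Prop} (h : HasAb n c E) (hn : n = m) (hc : c = d) : HasAb m d E := by
  subst hn hc
  exact h

theorem hasAb_zero (E : Prop) : HasAb 0 1 E :=
  ⟨⊥, fun a ha b hb => by rw [Subgroup.mem_bot] at ha hb; rw [ha, hb], by simp, fun _ a ha => by
    rw [Subgroup.mem_bot] at ha; rw [ha, map_one]⟩

theorem hasAb_three (E : Prop) : HasAb 3 3 E := by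
  refine ⟨alternatingGroup (Fin 3), ?_, ?_, fun _ a ha => ha⟩
  · intro a ha b hb
    exact A3_comm a b ha hb
  · have h := two_mul_card_alternatingGroup (α := Fin 3)
    rw [Fintype.card_perm, Fintype.card_fin] at h
    rw [Nat.card_eq_fintype_card]
    have : Nat.factorial 3 = 6 := rfl
    omega

theorem hasAb_four (E : Prop) : HasAb 4 4 E := by
  refine ⟨V4, fun a ha b hb => S4_comm a ha b hb, ?_, fun _ a ha => S4_sign a ha⟩
  show Nat.card (↑S4 : Set (Perm (Fin 4))) = 4
  rw [Nat.card_coe_set_eq, Set.ncard_coe_finset, S4_card]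

theorem hasAb_two : HasAb 2 2 False := by
  refine ⟨⊤, fun a _ b _ => P2_comm a b, ?_, fun h => h.elim⟩
  simp [Nat.card_eq_fintype_card, Fintype.card_perm]

theorem HasAb.add {n₁ n₂ c₁ c₂ : ℕ} {E : Prop} (h₁ : HasAb n₁ c₁ E) (h₂ : HasAb n₂ c₂ E) :
    HasAb (n₁ + n₂) (c₁ * c₂) E := by
  obtain ⟨A₁, hc₁, rfl, hs₁⟩ := h₁
  obtain ⟨A₂, hc₂, rfl, hs₂⟩ := h₂
  let φ : Perm (Fin n₁) × Perm (Fin n₂) →* Perm (Fin (n₁ + n₂)) :=
    (((finSumFinEquiv (m := n₁) (n := n₂)).permCongrHom).toMonoidHom).comp (Perm.sumCongrHom (Fin n₁) (Fin n₂))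
  have hφ : Function.Injective φ := by
    intro x y hxy
    apply Perm.sumCongrHom_injective
    exact ((finSumFinEquiv (m := n₁) (n := n₂)).permCongrHom).injective hxy
  refine ⟨(A₁.prod A₂).map φ, ?_, ?_, ?_⟩
  · rintro _ ⟨x, hx, rfl⟩ _ ⟨y, hy, rfl⟩
    rw [← map_mul, ← map_mul]
    congr 1
    exact Prod.ext (hc₁ _ hx.1 _ hy.1) (hc₂ _ hx.2 _ hy.2)
  · rw [Nat.card_congr (Subgroup.equivMapOfInjective (A₁.prod A₂) φ hφ).symm.toEquiv,
      Nat.card_congr (Subgroup.prodEquiv A₁ A₂).toEquiv, Nat.card_prod]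
  · intro hE
    rintro _ ⟨x, hx, rfl⟩
    have h1 : φ x = (finSumFinEquiv (m := n₁) (n := n₂)).permCongr (Perm.sumCongr x.1 x.2) := rfl
    rw [h1, Perm.sign_permCongr, Perm.sign_sumCongr, hs₁ hE _ hx.1, hs₂ hE _ hx.2, one_mul]

theorem hasAb_mul_three (E : Prop) (k : ℕ) : HasAb (3 * k) (3 ^ k) E := by
  induction k with
  | zero => exact hasAb_zero E
  | succ k ih => exact (ih.add (hasAb_three E)).cast (by ring) (by ring)

theorem hasAb_three_one (E : Prop) (k : ℕ) : HasAb (3 * (k + 1) + 1) (4 * 3 ^ k) E :=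
  ((hasAb_four E).add (hasAb_mul_three E k)).cast (by ring) rfl

theorem hasAb_three_two_even (E : Prop) (k : ℕ) : HasAb (3 * (k + 2) + 2) (16 * 3 ^ k) E :=
  (((hasAb_four E).add (hasAb_four E)).add (hasAb_mul_three E k)).cast (by ring) (by ring)

theorem hasAb_three_two (k : ℕ) : HasAb (3 * k + 2) (2 * 3 ^ k) False :=
  (hasAb_two.add (hasAb_mul_three False k)).cast (by ring) rfl

/-- Conversion to the form used in the statements. -/
theorem HasAb.exists_perm {n c : ℕ} {E : Prop} (h : HasAb n c E) :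
    ∃ A : Subgroup (Perm (Fin n)), IsMulCommutative A ∧ Nat.card A = c := by
  obtain ⟨A, h1, h2, -⟩ := h
  exact ⟨A, ⟨⟨fun a b => Subtype.ext (h1 _ a.2 _ b.2)⟩⟩, h2⟩

theorem HasAb.exists_alt {n c : ℕ} (h : HasAb n c True) :
    ∃ A : Subgroup (alternatingGroup (Fin n)), IsMulCommutative A ∧ Nat.card A = c := by
  obtain ⟨A, h1, h2, h3⟩ := h
  have hle : A ≤ alternatingGroup (Fin n) := fun a ha => h3 trivial a ha
  refine ⟨A.subgroupOf (alternatingGroup (Fin n)), ⟨⟨fun a b => ?_⟩⟩, ?_⟩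
  · apply Subtype.ext
    apply Subtype.ext
    exact h1 _ a.2 _ b.2
  · rw [Nat.card_congr (Subgroup.subgroupOfEquivOfLe hle).toEquiv, h2]

/-- The bound in symmetric groups. -/
theorem card_le_g_fin {n : ℕ} (A : Subgroup (Perm (Fin n))) (hA : IsMulCommutative A) : Nat.card A ≤ g n := by
  letI := Fintype.ofFinite (MulAction.orbitRel.Quotient A (Fin n))
  have h := card_le_g A (fun a ha b hb => setLike_mul_comm ha hb)
  simpa using h

/-- The image of a subgroup of an alternating group. -/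
theorem card_le_g_alt {n : ℕ} (A : Subgroup (alternatingGroup (Fin n))) (hA : IsMulCommutative A) : Nat.card A ≤ g n := by
  have h1 := card_le_g_fin (A.map (alternatingGroup (Fin n)).subtype) ⟨⟨by
    rintro ⟨_, ⟨x, hx, rfl⟩⟩ ⟨_, ⟨y, hy, rfl⟩⟩
    apply Subtype.ext
    show ((x * y : alternatingGroup (Fin n)) : Perm (Fin n)) = ((y * x : alternatingGroup (Fin n)) : Perm (Fin n))
    rw [setLike_mul_comm hx hy]⟩⟩
  rwa [← Nat.card_congr (Subgroup.equivMapOfInjective A _ (alternatingGroup (Fin n)).subtype_injective).toEquiv] at h1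

theorem card_le_alt_two {k : ℕ} (hk : 2 ≤ k) (A : Subgroup (alternatingGroup (Fin (3 * k + 2)))) (hA : IsMulCommutative A) :
    Nat.card A ≤ 16 * 3 ^ (k - 2) := by
  let A' := A.map (alternatingGroup (Fin (3 * k + 2))).subtype
  letI := Fintype.ofFinite (MulAction.orbitRel.Quotient A' (Fin (3 * k + 2)))
  have h1 := card_le_even A' (by
      rintro _ ⟨x, hx, rfl⟩ _ ⟨y, hy, rfl⟩
      show ((x * y : alternatingGroup (Fin (3 * k + 2))) : Perm (Fin (3 * k + 2))) = ((y * x : alternatingGroup (Fin (3 * k + 2))) : Perm (Fin (3 * k + 2)))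
      rw [setLike_mul_comm hx hy]) (by
      rintro _ ⟨x, hx, rfl⟩
      exact x.2) k hk (by simp)
  rwa [← Nat.card_congr (Subgroup.equivMapOfInjective A _ (alternatingGroup (Fin (3 * k + 2))).subtype_injective).toEquiv] at h1

end Cfsg.Agent.Lib.AbPerm
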